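import Cfsg.Agent.Blocks.Osima
import Cfsg.Agent.Blocks.Orthogonality
import Cfsg.Agent.Blocks.Fong

/-!
# TEAM EB (S4522): a decomposition on the `p`-regular elements stays inside one block (helper855)
-/

set_option autoImplicit false

namespace Cfsg.Agent.H855.EB

open Cfsg Cfsg.Agent.Characters.Core Cfsg.Agent.Blocks.Local
open scoped ComplexConjugate

universe u

variable {G : Type u} [Group G] [Fintype G] {M : Ideal AlgInt} {p : ℕ}

theorem blockCoeff_eq_zero (hM : IsPModular p M) {B : Set (IrrCharacter G)} (hB : IsPBlock M B) {g : G}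
    (hg : ¬ IsPRegular p g) : blockCoeff B g = 0 := by
  have : Fact p.Prime := ⟨hM.1⟩
  have h := Blocks.Orthogonality.weak_block_orthogonality hM B
    (fun g => Blocks.Osima.memLocalRing_blockCoeff hM hB g) (x := 1) (y := g)
    (by rw [orderOf_one]; exact fun h => hM.1.one_lt.ne' (Nat.dvd_one.1 h)) (not_not.1 hg)
  rw [blockCoeff, h, mul_zero]

/-- The degree of the `B`-part of a class function. -/
noncomputable def part (B : Set (IrrCharacter G)) (η : G → ℂ) : ℂ := ∑ g : G, blockCoeff B g * η g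

theorem part_irr_mem {B : Set (IrrCharacter G)} {χ : IrrCharacter G} (h : χ ∈ B) :
    part B (χ : G → ℂ) = (χ : G → ℂ) 1 := by
  classical
  rw [part, Blocks.Fong.sum_blockCoeff_mul, if_pos h]

theorem part_irr_notMem {B : Set (IrrCharacter G)} {χ : IrrCharacter G} (h : χ ∉ B) :
    part B (χ : G → ℂ) = 0 := by
  classical
  rw [part, Blocks.Fong.sum_blockCoeff_mul, if_neg h]

/-- The degree of the `B`-part of a character is a natural number. -/
theorem part_char (B : Set (IrrCharacter G)) {ψ : G → ℂ} (hψ : IsCharacter G ψ) : ∃ n : ℕ, part B ψ = n := by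
  classical
  have := Characters.Core.finite_irr (G := G)
  have := Fintype.ofFinite (IrrCharacter G)
  have h1 : part B ψ = ∑ χ : IrrCharacter G, classInner ψ (χ : G → ℂ) * part B (χ : G → ℂ) := by
    have h2 := classFunction_eq_sum (isCharacter_isClassFunction hψ)
    conv_lhs => rw [h2]
    unfold part
    simp only [Finset.sum_apply, Pi.smul_apply, smul_eq_mul, Finset.mul_sum]
    rw [Finset.sum_comm]
    refine Finset.sum_congr rfl fun χ _ => Finset.sum_congr rfl fun g _ => ?_
    ring
  have h2 : ∀ χ : IrrCharacter G, ∃ n : ℕ, classInner ψ (χ : G → ℂ) * part B (χ : G → ℂ) = n := by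
    intro χ
    obtain ⟨a, ha⟩ := classInner_isNat hψ (isIrr_isCharacter χ.2)
    by_cases h : χ ∈ B
    · rw [part_irr_mem h, ha, Blocks.Basic.irr_one_eq_charDegree χ.2]
      exact ⟨a * charDegree (χ : G → ℂ), by push_cast; rfl⟩
    · rw [part_irr_notMem h, mul_zero]
      exact ⟨0, by simp⟩
  choose n hn using h2
  exact ⟨∑ χ, n χ, by rw [h1, Nat.cast_sum]; exact Finset.sum_congr rfl fun χ _ => hn χ⟩

theorem part_congr (hM : IsPModular p M) {B : Set (IrrCharacter G)} (hB : IsPBlock M B) {η η' : G → ℂ}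
    (h : ∀ s : G, IsPRegular p s → η s = η' s) : part B η = part B η' := by
  refine Finset.sum_congr rfl fun g _ => ?_
  by_cases hg : IsPRegular p g
  · rw [h g hg]
  · rw [blockCoeff_eq_zero hM hB hg, zero_mul, zero_mul]

/-- **(BR)** A decomposition on the `p`-regular elements stays inside one block. -/
theorem sameBlock_of_reg (hM : IsPModular p M) (χ θ : IrrCharacter G) {ψ : G → ℂ} (hψ : IsCharacter G ψ)
    (h : ∀ s : G, IsPRegular p s → (χ : G → ℂ) s = (θ : G → ℂ) s + ψ s) :
    SameBlock M (χ : G → ℂ) (θ : G → ℂ) := by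
  by_contra hne
  have : Fact p.Prime := ⟨hM.1⟩
  have hB : IsPBlock M (blockOf M (θ : G → ℂ)) := ⟨θ, rfl⟩
  have hθ : θ ∈ blockOf M (θ : G → ℂ) := Blocks.Osima.sameBlock_refl hM _
  have hχ : χ ∉ blockOf M (θ : G → ℂ) := fun h' => hne (Blocks.Osima.sameBlock_symm h')
  have h1 := part_congr hM hB (η := (χ : G → ℂ)) (η' := fun s => (θ : G → ℂ) s + ψ s) h
  have h2 : part (blockOf M (θ : G → ℂ)) (fun s => (θ : G → ℂ) s + ψ s) =
      part (blockOf M (θ : G → ℂ)) (θ : G → ℂ) + part (blockOf M (θ : G → ℂ)) ψ := by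
    unfold part
    rw [← Finset.sum_add_distrib]
    exact Finset.sum_congr rfl fun g _ => by ring
  obtain ⟨n, hn⟩ := part_char (blockOf M (θ : G → ℂ)) hψ
  rw [h2, part_irr_notMem hχ, part_irr_mem hθ, hn, Blocks.Basic.irr_one_eq_charDegree θ.2] at h1
  have h3 : charDegree (θ : G → ℂ) + n = 0 := by exact_mod_cast h1.symm
  have h4 := Blocks.Basic.irr_one_eq_charDegree θ.2
  rw [show charDegree (θ : G → ℂ) = 0 by omega, Nat.cast_zero] at h4
  exact Blocks.Basic.irr_one_ne_zero θ.2 h4

end Cfsg.Agent.H855.EB
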